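import Cfsg.Agent.H214.OT.Env

/-!
# S2539, END_l : the root lemmas R1, R2, R2', R3, R8, R10
-/

set_option autoImplicit false

namespace Cfsg.Agent.H544.OT

open Subgroup Cfsg.Agent.H712.OT Cfsg.Agent.H214.OT
open scoped commutatorElement

universe u v w

variable {K : Type u} [Field K] [Fintype K] {Y : Type v} [Group Y] {T M : Subgroup Y}
  {Φ : Type w} {Ψ : Set Φ} {P : Φ → Φ → ℤ}

/-! ## Characters -/

theorem chi_one (X : Ctx K Y T M Φ Ψ P) {a : Φ} (ha : a ∈ Ψ) : X.χ a 1 = 1 := by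
  have h := X.χ_mul a ha 1 T.one_mem 1 T.one_mem
  rw [mul_one] at h
  exact mul_eq_left.mp h.symm

theorem chi_inv (X : Ctx K Y T M Φ Ψ P) {a : Φ} (ha : a ∈ Ψ) {t : Y} (ht : t ∈ T) :
    X.χ a t⁻¹ = (X.χ a t)⁻¹ := by
  have h := X.χ_mul a ha t ht t⁻¹ (T.inv_mem ht)
  rw [mul_inv_cancel, chi_one X ha] at h
  exact (eq_inv_of_mul_eq_one_right h.symm)

theorem chi_pow (X : Ctx K Y T M Φ Ψ P) {a : Φ} (ha : a ∈ Ψ) {t : Y} (ht : t ∈ T) (n : ℕ) :
    X.χ a (t ^ n) = (X.χ a t) ^ n := by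
  induction n with
  | zero => simp [chi_one X ha]
  | succ n ih => rw [pow_succ, X.χ_mul a ha _ (T.pow_mem ht n) _ ht, ih, pow_succ]

theorem eq_of_chi (X : Ctx K Y T M Φ Ψ P) {s t : Y} (hs : s ∈ T) (ht : t ∈ T)
    (h : ∀ b ∈ Ψ, X.χ b s = X.χ b t) : s = t := by
  have h1 : s * t⁻¹ = 1 := by
    apply X.χ_inj _ (T.mul_mem hs (T.inv_mem ht))
    intro b hb
    rw [X.χ_mul b hb s hs _ (T.inv_mem ht), chi_inv X hb ht, h b hb, mul_inv_cancel]
  exact mul_inv_eq_one.mp h1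

theorem act_inv_P (X : Ctx K Y T M Φ Ψ P) (m : M) (a b : Φ) :
    P (X.act m⁻¹ b) a = P b (X.act m a) := by
  have h := X.act_P m (X.act m⁻¹ b) a
  rw [← Equiv.Perm.mul_apply, ← map_mul, mul_inv_cancel, map_one] at h
  simpa using h.symm

/-- `m h_a(c) m⁻¹ = h_(ma)(c)` -/
theorem conj_h (X : Ctx K Y T M Φ Ψ P) (m : M) {a : Φ} (ha : a ∈ Ψ) (c : Kˣ) :
    (m : Y) * X.h a c * (m : Y)⁻¹ = X.h (X.act m a) c := by
  apply eq_of_chi X (X.conj_mem _ m.2 _ (X.h_mem a c)) (X.h_mem _ c)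
  intro b hb
  have hb' : X.act m⁻¹ b ∈ Ψ := X.act_mem _ _ hb
  have h := X.χ_act m (X.act m⁻¹ b) hb' _ (X.h_mem a c)
  rw [← Equiv.Perm.mul_apply, ← map_mul, mul_inv_cancel, map_one] at h
  simp only [Equiv.Perm.coe_one, id_eq] at h
  rw [h, X.χ_h a ha _ hb' c, X.χ_h _ (X.act_mem m a ha) _ hb c, act_inv_P X m a b]

/-- **R10** -/
theorem exponent (X : Ctx K Y T M Φ Ψ P) {t : Y} (ht : t ∈ T) : t ^ (Fintype.card K - 1) = 1 := by
  classical
  apply X.χ_inj _ (T.pow_mem ht _)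
  intro b hb
  rw [chi_pow X hb ht, ← Fintype.card_units, pow_card_eq_one]

/-- an element of order `s` in `Kˣ` -/
theorem exists_unit (s : ℕ) (hd : s ∣ Fintype.card K - 1) : ∃ z : Kˣ, orderOf z = s := by
  classical
  have hc : Nat.card Kˣ = Fintype.card K - 1 := by rw [Nat.card_eq_fintype_card, Fintype.card_units]
  obtain ⟨g, hg⟩ := IsCyclic.exists_ofOrder_eq_natCard (α := Kˣ)
  have hpos : 0 < Fintype.card K - 1 := by
    have := Fintype.one_lt_card (α := K)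
    omega
  obtain ⟨k, hk⟩ := hd
  have hk0 : k ≠ 0 := by
    rintro rfl
    rw [mul_zero] at hk
    omega
  refine ⟨g ^ k, ?_⟩
  have h1 : orderOf g = s * k := by rw [hg, hc, hk]
  have hs0 : 0 < s := by
    rcases Nat.eq_zero_or_pos s with h | h
    · rw [h, zero_mul] at hk; omega
    · exact h
  rw [orderOf_pow' g hk0, h1, Nat.gcd_eq_right (Dvd.intro_left s rfl)]
  exact Nat.mul_div_cancel _ (Nat.pos_of_ne_zero hk0)

omit [Fintype K] in
theorem dvd_of_zpow_eq {z : Kˣ} {s : ℕ} (hz : orderOf z = s) {i j : ℤ} (h : z ^ i = z ^ j) :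
    (s : ℤ) ∣ i - j := by
  rw [← hz, orderOf_dvd_iff_zpow_eq_one, zpow_sub, h, mul_inv_cancel]

/-! ## Elementary facts on the roots -/

theorem neg_unique (X : Ctx K Y T M Φ Ψ P) {a b : Φ} (h : P a b = -2) : b = X.neg a := by
  have h1 : P (X.neg a) b = 2 := by rw [X.P_neg, h]; rfl
  exact (X.two _ _ h1).symm

theorem act3 (X : Ctx K Y T M Φ Ψ P) {x : M} (hx3 : (x : Y) ^ 3 ∈ T) {a : Φ} (ha : a ∈ Ψ) :
    X.act x (X.act x (X.act x a)) = a := by
  have h : ((x ^ 3 : M) : Y) ∈ T := by simpa using hx3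
  have h1 := (X.act_T (x ^ 3)).mp h a ha
  rw [map_pow] at h1
  simpa [pow_succ] using h1

theorem abs_two (X : Ctx K Y T M Φ Ψ P) (a b : Φ) : -2 ≤ P a b ∧ P a b ≤ 2 := abs_le.mp (X.P_abs a b)

/-- `P a b` is `±2` only for `b = ±a` -/
theorem small (X : Ctx K Y T M Φ Ψ P) {a b : Φ} (h1 : b ≠ a) (h2 : b ≠ X.neg a) :
    -1 ≤ P a b ∧ P a b ≤ 1 := by
  have h := abs_two X a b
  refine ⟨?_, ?_⟩
  · by_contra hc
    exact h2 (neg_unique X (by omega))
  · by_contra hc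
    exact h1 (X.two a b (by omega)).symm

/-- the sum over a triangle of roots -/
theorem sum_zero (X : Ctx K Y T M Φ Ψ P) {a b c : Φ} (ha : a ∈ Ψ) (hb : b ∈ Ψ) (hab : P a b = -1)
    (hac : P a c = -1) (hbc : P b c = -1) (x : Φ) : P a x + P b x + P c x = 0 := by
  obtain ⟨d, hd, hdx, -⟩ := X.add a ha b hb hab
  have h1 : P d c = -2 := by rw [hdx, hac, hbc]; rfl
  have h2 : P c d = -2 := by rw [X.symm]; exact h1
  have h3 : d = X.neg c := neg_unique X h2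
  have h4 := hdx x
  rw [h3, X.P_neg] at h4
  omega

/-! ## R2' -/

theorem nu_P (X : Ctx K Y T M Φ Ψ P) {x : M} {a : Φ} (h : P (X.act x a) a = -1) : P a (X.act x a) = -1 := by
  rw [X.symm]; exact h

/-- the sum over an orbit of three roots, one triangle version -/
theorem sum_orbit (X : Ctx K Y T M Φ Ψ P) {x : M} (hx3 : (x : Y) ^ 3 ∈ T) {a : Φ} (ha : a ∈ Ψ)
    (hx : P (X.act x a) a = -1) (b : Φ) : P a b + P (X.act x a) b + P (X.act x (X.act x a)) b = 0 := by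
  apply sum_zero X ha (X.act_mem x a ha) (nu_P X hx)
  · rw [X.symm]
    have h := X.act_P x (X.act x (X.act x a)) a
    rw [act3 X hx3 ha] at h
    rw [← h]; exact nu_P X hx
  · rw [X.act_P]; exact nu_P X hx

/-- **R2'** -/
theorem Nu.sum (X : Ctx K Y T M Φ Ψ P) {x : M} (hx : Nu X x) (hx3 : (x : Y) ^ 3 ∈ T) :
    ∀ a ∈ Ψ, ∀ b, P a b + P (X.act x a) b + P (X.act x (X.act x a)) b = 0 :=
  fun a ha b => sum_orbit X hx3 ha (hx a ha) b

/-! ## R1 -/

/-- `m` centralises `h_a(z)` -/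
theorem cong_of_comm (X : Ctx K Y T M Φ Ψ P) {s : ℕ} {z : Kˣ} (hz : orderOf z = s) (m : M)
    (hc : ∀ t ∈ T, t ^ s = 1 → (m : Y) * t = t * m) {a : Φ} (ha : a ∈ Ψ) {b : Φ} (hb : b ∈ Ψ) :
    (s : ℤ) ∣ P b (X.act m a) - P b a := by
  have h1 : (X.h a z) ^ s = 1 := by rw [← map_pow, ← hz, pow_orderOf_eq_one, map_one]
  have h2 := hc _ (X.h_mem a z) h1
  have h3 : (m : Y) * X.h a z * (m : Y)⁻¹ = X.h a z := by rw [h2, mul_inv_cancel_right]
  rw [conj_h X m ha z] at h3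
  have h4 : X.χ b (X.h (X.act m a) z) = X.χ b (X.h a z) := by rw [h3]
  rw [X.χ_h _ (X.act_mem m a ha) _ hb, X.χ_h _ ha _ hb] at h4
  exact dvd_of_zpow_eq hz h4

/-- **R1**: `M/T` is faithful on `T[s]`, `s ≥ 5`, or `s = 3` and `Ψ ⊇ A₃` -/
theorem faithful (X : Ctx K Y T M Φ Ψ P) {s : ℕ} (hs : s.Prime) (h : 5 ≤ s ∨ (s = 3 ∧ A3 X))
    (hd : s ∣ Fintype.card K - 1) {m : Y} (hm : m ∈ M) (hc : ∀ t ∈ T, t ^ s = 1 → m * t = t * m) : m ∈ T := by
  obtain ⟨z, hz⟩ := exists_unit (K := K) s hd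
  have hcg : ∀ a ∈ Ψ, ∀ b ∈ Ψ, (s : ℤ) ∣ P b (X.act ⟨m, hm⟩ a) - P b a :=
    fun a ha b hb => cong_of_comm X hz ⟨m, hm⟩ hc ha hb
  refine (X.act_T ⟨m, hm⟩).mpr fun a ha => ?_
  have h1 := hcg a ha a ha
  rw [X.self] at h1
  have h2 := abs_two X a (X.act ⟨m, hm⟩ a)
  rcases h with h5 | ⟨h3, hA⟩
  · have h6 : P a (X.act ⟨m, hm⟩ a) = 2 := by
      obtain ⟨k, hk⟩ := h1
      have hs5 : (5 : ℤ) ≤ s := by exact_mod_cast h5
      have hk0 : k = 0 := by
        by_contra hk0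
        rcases lt_or_gt_of_ne hk0 with hk1 | hk1
        · have : (s : ℤ) * k ≤ s * (-1) := by
            apply mul_le_mul_of_nonneg_left (by omega) (by omega)
          omega
        · have : (s : ℤ) * 1 ≤ s * k := by
            apply mul_le_mul_of_nonneg_left (by omega) (by omega)
          omega
      rw [hk0, mul_zero] at hk
      omega
    exact (X.two _ _ h6).symm
  · subst h3
    push_cast at h1 hcg
    have h6 : P a (X.act ⟨m, hm⟩ a) = 2 ∨ P a (X.act ⟨m, hm⟩ a) = -1 := by omega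
    rcases h6 with h6 | h6
    · exact (X.two _ _ h6).symm
    exfalso
    set b := X.act ⟨m, hm⟩ a with hbdef
    have hb : b ∈ Ψ := X.act_mem _ _ ha
    obtain ⟨c, hcΨ, hcx, -⟩ := X.add a ha b hb h6
    let S : Set Φ := {a, b, c, X.neg a, X.neg b, X.neg c}
    have hSsub : S ⊆ Ψ := by
      rintro y (rfl | rfl | rfl | rfl | rfl | rfl)
      · exact ha
      · exact hb
      · exact hcΨ
      · exact X.neg_mem _ ha
      · exact X.neg_mem _ hb
      · exact X.neg_mem _ hcΨ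
    have hba : P b a = -1 := by rw [X.symm]; exact h6
    have hca : P c a = 1 := by rw [hcx, X.self, hba]; rfl
    have hcb : P c b = 1 := by rw [hcx, X.self, h6]; rfl
    have hac : P a c = 1 := by rw [X.symm]; exact hca
    have hbc : P b c = 1 := by rw [X.symm]; exact hcb
    have hPn : ∀ x y, P x (X.neg y) = - P x y := by
      intro x y
      rw [X.symm, X.P_neg, X.symm]
    -- no root of `S` is orthogonal to another one
    have hSn : ∀ x ∈ S, ∀ y ∈ S, P x y ≠ 0 := by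
      rintro x (rfl | rfl | rfl | rfl | rfl | rfl) y (rfl | rfl | rfl | rfl | rfl | rfl) <;>
        simp only [X.P_neg, hPn, X.self, h6, hba, hca, hcb, hac, hbc] <;> decide
    have hSeq : S = Ψ := by
      by_contra hne
      obtain ⟨x, hx, y, hy, hyS, hxy⟩ := X.irred S hSsub ⟨a, Or.inl rfl⟩ hne
      simp only [S, Set.mem_insert_iff, Set.mem_singleton_iff, not_or] at hyS
      obtain ⟨n1, n2, n3, n4, n5, n6⟩ := hyS
      have s1 := small X n1 n4
      have s2 := small X n2 n5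
      have s3 := small X n3 n6
      have e1 := hcg a ha y hy
      rw [← hbdef, X.symm y b, X.symm y a] at e1
      have e2 := hcx y
      have e0 : P a y = 0 ∧ P b y = 0 ∧ P c y = 0 := by omega
      rcases hx with rfl | rfl | rfl | rfl | rfl | rfl
      · exact hxy e0.1
      · exact hxy e0.2.1
      · exact hxy e0.2.2
      · exact hxy (by rw [X.P_neg, e0.1]; rfl)
      · exact hxy (by rw [X.P_neg, e0.2.1]; rfl)
      · exact hxy (by rw [X.P_neg, e0.2.2]; rfl)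
    obtain ⟨a', ha', b', hb', c', hc', -, -, h0⟩ := hA
    rw [← hSeq] at ha' hc'
    exact hSn a' ha' c' hc' h0

/-! ## R2, R3 -/

/-- the congruence given by a quadratic element -/
theorem cong_of_quad (X : Ctx K Y T M Φ Ψ P) {s : ℕ} {z : Kˣ} (hz : orderOf z = s) (x : M)
    (hq : ∀ t ∈ T, t ^ s = 1 → ⁅⁅t, (x : Y)⁆, (x : Y)⁆ = 1) {a : Φ} (ha : a ∈ Ψ) {b : Φ} (hb : b ∈ Ψ) :
    (s : ℤ) ∣ P b a - 2 * P b (X.act x a) + P b (X.act x (X.act x a)) := by
  have h1 : (X.h a z) ^ s = 1 := by rw [← map_pow, ← hz, pow_orderOf_eq_one, map_one]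
  have h2 := hq _ (X.h_mem a z) h1
  have ha1 := X.act_mem x a ha
  have ha2 := X.act_mem x _ ha1
  have e1 : ⁅X.h a z, (x : Y)⁆ = X.h a z * (X.h (X.act x a) z)⁻¹ := by
    rw [← conj_h X x ha z, commutatorElement_def]
    group
  have e2 : ⁅⁅X.h a z, (x : Y)⁆, (x : Y)⁆ =
      (X.h a z * (X.h (X.act x a) z)⁻¹) * (X.h (X.act x a) z * (X.h (X.act x (X.act x a)) z)⁻¹)⁻¹ := by
    rw [e1, ← conj_h X x ha1 z, commutatorElement_def]
    have e3 : X.h (X.act x a) z = (x : Y) * X.h a z * (x : Y)⁻¹ := (conj_h X x ha z).symm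
    rw [mul_assoc (X.h a z * (X.h (X.act x a) z)⁻¹)]
    rw [mul_assoc (X.h a z * (X.h (X.act x a) z)⁻¹)]
    congr 1
    conv_rhs => rw [show X.h (X.act x a) z * ((x : Y) * X.h (X.act x a) z * (x : Y)⁻¹)⁻¹ =
      ((x : Y) * X.h a z * (x : Y)⁻¹) * ((x : Y) * X.h (X.act x a) z * (x : Y)⁻¹)⁻¹ by rw [← e3]]
    group
  rw [e2] at h2
  have m1 := X.h_mem a z
  have m2 := X.h_mem (X.act x a) z
  have m3 := X.h_mem (X.act x (X.act x a)) z
  have h4 : X.χ b ((X.h a z * (X.h (X.act x a) z)⁻¹) *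
      (X.h (X.act x a) z * (X.h (X.act x (X.act x a)) z)⁻¹)⁻¹) = 1 := by rw [h2, chi_one X hb]
  rw [X.χ_mul b hb _ (T.mul_mem m1 (T.inv_mem m2)) _ (T.inv_mem (T.mul_mem m2 (T.inv_mem m3))),
    X.χ_mul b hb _ m1 _ (T.inv_mem m2), chi_inv X hb (T.mul_mem m2 (T.inv_mem m3)),
    X.χ_mul b hb _ m2 _ (T.inv_mem m3), chi_inv X hb m2, chi_inv X hb m3,
    X.χ_h _ ha _ hb, X.χ_h _ ha1 _ hb, X.χ_h _ ha2 _ hb] at h4
  rw [← hz, orderOf_dvd_iff_zpow_eq_one, ← h4, ← zpow_neg, ← zpow_neg, ← zpow_add, ← zpow_add, ← zpow_neg,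
    ← zpow_add]
  congr 1
  ring

/-- **R2**: an element of order 3 modulo `T`, quadratic on `T[3]`, moves every root by 120 degrees -/
theorem nu_of_quadratic (X : Ctx K Y T M Φ Ψ P) (hd : 3 ∣ Fintype.card K - 1) {x : M} (hx : (x : Y) ∉ T)
    (hx3 : (x : Y) ^ 3 ∈ T) (hq : ∀ t ∈ T, t ^ 3 = 1 → ⁅⁅t, (x : Y)⁆, (x : Y)⁆ = 1) : Nu X x := by
  obtain ⟨z, hz⟩ := exists_unit (K := K) 3 hd
  have hcg : ∀ a ∈ Ψ, ∀ b ∈ Ψ, (3 : ℤ) ∣ P b a - 2 * P b (X.act x a) + P b (X.act x (X.act x a)) := by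
    intro a ha b hb
    exact_mod_cast cong_of_quad X hz x hq ha hb
  have hdich : ∀ a ∈ Ψ, X.act x a = a ∨ P (X.act x a) a = -1 := by
    intro a ha
    have h1 := hcg a ha a ha
    have h2 : P a (X.act x (X.act x a)) = P a (X.act x a) := by
      rw [X.symm]
      have h := X.act_P x (X.act x (X.act x a)) a
      rw [act3 X hx3 ha] at h
      exact h.symm
    rw [X.self, h2] at h1
    have h3 := abs_two X a (X.act x a)
    have h4 : P a (X.act x a) = 2 ∨ P a (X.act x a) = -1 := by omega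
    rcases h4 with h4 | h4
    · exact Or.inl (X.two _ _ h4).symm
    · exact Or.inr (by rw [X.symm]; exact h4)
  let S : Set Φ := {a | a ∈ Ψ ∧ P (X.act x a) a = -1}
  have hSne : S.Nonempty := by
    by_contra hne
    rw [Set.not_nonempty_iff_eq_empty] at hne
    apply hx
    refine (X.act_T x).mpr fun a ha => ?_
    rcases hdich a ha with h | h
    · exact h
    · exact absurd (show a ∈ S from ⟨ha, h⟩) (by rw [hne]; exact Set.notMem_empty a)
  by_contra hnu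
  have hSne' : S ≠ Ψ := by
    intro h
    apply hnu
    intro a ha
    rw [← h] at ha
    exact ha.2
  obtain ⟨a, haS, b, hb, hbS, hab⟩ := X.irred S (fun a ha => ha.1) hSne hSne'
  have hbfix : X.act x b = b := by
    rcases hdich b hb with h | h
    · exact h
    · exact absurd ⟨hb, h⟩ hbS
  have hs := sum_orbit X hx3 haS.1 haS.2 b
  have h1 : P (X.act x a) b = P a b := by
    have := X.act_P x a b
    rwa [hbfix] at this
  have h2 : P (X.act x (X.act x a)) b = P (X.act x a) b := by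
    have := X.act_P x (X.act x a) b
    rwa [hbfix] at this
  rw [h2, h1] at hs
  omega

/-- **R3**: no quadratic element of order 3 modulo `T` on `T[9]` -/
theorem no_quadratic_nine (X : Ctx K Y T M Φ Ψ P) (hd : 9 ∣ Fintype.card K - 1) {x : M} (hx3 : (x : Y) ^ 3 ∈ T)
    (hq : ∀ t ∈ T, t ^ 9 = 1 → ⁅⁅t, (x : Y)⁆, (x : Y)⁆ = 1) : (x : Y) ∈ T := by
  by_contra hx
  have hd3 : 3 ∣ Fintype.card K - 1 := Dvd.dvd.trans (by norm_num) hd
  have hnu : Nu X x := nu_of_quadratic X hd3 hx hx3 (fun t ht h3 => hq t ht (by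
    rw [show (9 : ℕ) = 3 * 3 from rfl, pow_mul, h3, one_pow]))
  obtain ⟨z, hz⟩ := exists_unit (K := K) 9 hd
  obtain ⟨a, ha, -⟩ := X.rank
  have h1 := cong_of_quad X hz x hq ha (X.act_mem x a ha)
  have h2 := Nu.sum X hnu hx3 a ha (X.act x a)
  rw [X.symm (X.act x a) a, X.symm (X.act x a) (X.act x (X.act x a)), X.self] at h1
  rw [X.self] at h2
  push_cast at h1
  omega

/-! ## R8 -/

/-- **R8**: the `s`-rank of `T` is at least 3 -/
theorem cube_le [Finite Y] (X : Ctx K Y T M Φ Ψ P) (hA : A3 X) {s : ℕ} (hs : s.Prime) (h3 : 3 ≤ s)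
    (hd : s ∣ Fintype.card K - 1) : s ^ 3 ≤ tor X s := by
  obtain ⟨z, hz⟩ := exists_unit (K := K) s hd
  obtain ⟨a, ha, b, hb, c, hc, hab, hbc, hac⟩ := hA
  have hz1 : ∀ i : ℕ, (z ^ i) ^ s = 1 := by
    intro i
    rw [← pow_mul, mul_comm, pow_mul, ← hz, pow_orderOf_eq_one, one_pow]
  let f : Fin s × Fin s × Fin s → {t : Y // t ∈ T ∧ t ^ s = 1} := fun i =>
    ⟨X.h a (z ^ (i.1 : ℕ)) * (X.h b (z ^ (i.2.1 : ℕ)) * X.h c (z ^ (i.2.2 : ℕ))), by
      have m1 := X.h_mem a (z ^ (i.1 : ℕ))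
      have m2 := X.h_mem b (z ^ (i.2.1 : ℕ))
      have m3 := X.h_mem c (z ^ (i.2.2 : ℕ))
      refine ⟨T.mul_mem m1 (T.mul_mem m2 m3), ?_⟩
      have c1 : Commute (X.h a (z ^ (i.1 : ℕ))) (X.h b (z ^ (i.2.1 : ℕ)) * X.h c (z ^ (i.2.2 : ℕ))) :=
        X.comm _ m1 _ (T.mul_mem m2 m3)
      have c2 : Commute (X.h b (z ^ (i.2.1 : ℕ))) (X.h c (z ^ (i.2.2 : ℕ))) := X.comm _ m2 _ m3
      rw [c1.mul_pow, c2.mul_pow, ← map_pow, ← map_pow, ← map_pow, hz1, hz1, hz1]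
      simp⟩
  have hf : Function.Injective f := by
    rintro ⟨i1, i2, i3⟩ ⟨j1, j2, j3⟩ hij
    have hval := congrArg Subtype.val hij
    simp only [f] at hval
    have key : ∀ d ∈ Ψ, (s : ℤ) ∣ ((i1 : ℕ) * P d a + (i2 : ℕ) * P d b + (i3 : ℕ) * P d c) -
        ((j1 : ℕ) * P d a + (j2 : ℕ) * P d b + (j3 : ℕ) * P d c) := by
      intro d hd'
      have hgen : ∀ k1 k2 k3 : ℕ, X.χ d (X.h a (z ^ k1) * (X.h b (z ^ k2) * X.h c (z ^ k3))) =
          z ^ ((k1 : ℤ) * P d a + k2 * P d b + k3 * P d c) := by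
        intro k1 k2 k3
        rw [X.χ_mul d hd' _ (X.h_mem _ _) _ (T.mul_mem (X.h_mem _ _) (X.h_mem _ _)),
          X.χ_mul d hd' _ (X.h_mem _ _) _ (X.h_mem _ _), X.χ_h _ ha _ hd', X.χ_h _ hb _ hd', X.χ_h _ hc _ hd',
          ← zpow_natCast, ← zpow_natCast, ← zpow_natCast, ← zpow_mul, ← zpow_mul, ← zpow_mul, ← zpow_add,
          ← zpow_add, add_assoc]
      have h := congrArg (X.χ d) hval
      rw [hgen, hgen] at h
      exact dvd_of_zpow_eq hz h
    have ka := key a ha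
    have kb := key b hb
    have kc := key c hc
    rw [X.self, hab, hac] at ka
    rw [X.symm b a, hab, X.self, hbc] at kb
    rw [X.symm c a, hac, X.symm c b, hbc, X.self] at kc
    have hs2 : Prime (s : ℤ) := Nat.prime_iff_prime_int.mp hs
    have hn2 : ¬ (s : ℤ) ∣ 2 := by
      intro hdv
      have := Int.le_of_dvd (by norm_num) hdv
      omega
    set e1 : ℤ := (i1 : ℕ) - (j1 : ℕ) with he1
    set e2 : ℤ := (i2 : ℕ) - (j2 : ℕ) with he2
    set e3 : ℤ := (i3 : ℕ) - (j3 : ℕ) with he3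
    have ka' : (s : ℤ) ∣ 2 * e1 - e2 := by convert ka using 1; rw [he1, he2]; ring
    have kb' : (s : ℤ) ∣ -e1 + 2 * e2 - e3 := by convert kb using 1; rw [he1, he2, he3]; ring
    have kc' : (s : ℤ) ∣ -e2 + 2 * e3 := by convert kc using 1; rw [he2, he3]; ring
    have d2 : (s : ℤ) ∣ 2 * e2 := by
      obtain ⟨u, hu⟩ := ka'
      obtain ⟨v, hv⟩ := kb'
      obtain ⟨w, hw⟩ := kc'
      exact ⟨u + w + 2 * v, by linear_combination hu + hw + 2 * hv⟩
    have d2' : (s : ℤ) ∣ e2 := (hs2.dvd_or_dvd d2).resolve_left hn2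
    have d1' : (s : ℤ) ∣ e1 := by
      have h : (s : ℤ) ∣ 2 * e1 := by
        obtain ⟨u, hu⟩ := ka'
        obtain ⟨v, hv⟩ := d2'
        exact ⟨u + v, by linear_combination hu + hv⟩
      exact (hs2.dvd_or_dvd h).resolve_left hn2
    have d3' : (s : ℤ) ∣ e3 := by
      have h : (s : ℤ) ∣ 2 * e3 := by
        obtain ⟨u, hu⟩ := kc'
        obtain ⟨v, hv⟩ := d2'
        exact ⟨u + v, by linear_combination hu + hv⟩
      exact (hs2.dvd_or_dvd h).resolve_left hn2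
    have fin : ∀ (i j : Fin s), (s : ℤ) ∣ (i : ℕ) - (j : ℕ) → i = j := by
      intro i j hdv
      have hi := i.2
      have hj := j.2
      have h0 : ((i : ℕ) : ℤ) - ((j : ℕ) : ℤ) = 0 := by
        apply Int.eq_zero_of_abs_lt_dvd hdv
        rw [abs_lt]
        constructor <;> omega
      apply Fin.ext
      omega
    rw [fin _ _ d1', fin _ _ d2', fin _ _ d3']
  have hcard := Nat.card_le_card_of_injective f hf
  rw [Nat.card_prod, Nat.card_prod, Nat.card_fin] at hcard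
  rw [tor, pow_succ, pow_two]
  rw [mul_assoc]
  exact hcard

end Cfsg.Agent.H544.OT
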